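import Mathlib

/-!
BF-A1 of the S4698/S4588 farm: a lower bound for the determinant of an integral Gram matrix
`Zᵀ Z` with non-zero rows.
-/

set_option autoImplicit false
set_option linter.unusedSectionVars false

namespace Cfsg.Agent.Lib.Helper1.BF

open Matrix

variable {X ι : Type*} [Fintype ι] [DecidableEq ι]

/-- the real Gram-type matrix `∑_{χ ∈ S} z_χ z_χᵀ` -/
noncomputable def YR (z : X → ι → ℝ) (S : Finset X) : Matrix ι ι ℝ :=
  ∑ χ ∈ S, vecMulVec (z χ) (z χ)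

theorem YR_apply (z : X → ι → ℝ) (S : Finset X) (i j : ι) :
    YR z S i j = ∑ χ ∈ S, z χ i * z χ j := by
  unfold YR
  rw [Matrix.sum_apply]
  rfl

theorem YR_mulVec (z : X → ι → ℝ) (S : Finset X) (v : ι → ℝ) :
    YR z S *ᵥ v = ∑ χ ∈ S, (z χ ⬝ᵥ v) • z χ := by
  ext i
  simp only [mulVec, dotProduct, YR_apply, Finset.sum_apply, Pi.smul_apply, smul_eq_mul]
  simp_rw [Finset.sum_mul]
  rw [Finset.sum_comm]
  refine Finset.sum_congr rfl fun χ _ => ?_
  refine Finset.sum_congr rfl fun j _ => ?_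
  ring

theorem YR_quad (z : X → ι → ℝ) (S : Finset X) (v : ι → ℝ) :
    v ⬝ᵥ (YR z S *ᵥ v) = ∑ χ ∈ S, (z χ ⬝ᵥ v) ^ 2 := by
  rw [YR_mulVec, dotProduct_sum]
  refine Finset.sum_congr rfl fun χ _ => ?_
  rw [dotProduct_smul, smul_eq_mul, dotProduct_comm v, sq]

theorem YR_isHermitian (z : X → ι → ℝ) (S : Finset X) : (YR z S).IsHermitian := by
  ext i j
  simp only [conjTranspose_apply, YR_apply, star_trivial]
  exact Finset.sum_congr rfl fun χ _ => mul_comm _ _

theorem YR_posDef (z : X → ι → ℝ) (S : Finset X) (h : (YR z S).det ≠ 0) : (YR z S).PosDef := by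
  refine PosDef.of_dotProduct_mulVec_pos (YR_isHermitian z S) fun x hx => ?_
  rw [star_trivial, YR_quad]
  have h0 : 0 ≤ ∑ χ ∈ S, (z χ ⬝ᵥ x) ^ 2 := Finset.sum_nonneg fun _ _ => sq_nonneg _
  rcases h0.lt_or_eq with h1 | h1
  · exact h1
  · exfalso
    apply h
    rw [← exists_mulVec_eq_zero_iff]
    refine ⟨x, hx, ?_⟩
    rw [YR_mulVec]
    refine Finset.sum_eq_zero fun χ hχ => ?_
    have := (Finset.sum_eq_zero_iff_of_nonneg (fun χ _ => sq_nonneg (z χ ⬝ᵥ x))).mp h1.symm χ hχ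
    rw [pow_eq_zero_iff (two_ne_zero)] at this
    rw [this, zero_smul]

theorem YR_insert [DecidableEq X] (z : X → ι → ℝ) (S : Finset X) {χ₀ : X} (h : χ₀ ∉ S) :
    YR z (insert χ₀ S) = YR z S + replicateCol Unit (z χ₀) * replicateRow Unit (z χ₀) := by
  unfold YR
  rw [Finset.sum_insert h, add_comm]
  congr 1
  ext i j
  simp [vecMulVec_apply, Matrix.mul_apply]

theorem det_insert_gt [DecidableEq X] (z : X → ι → ℝ) (S : Finset X) {χ₀ : X} (h : χ₀ ∉ S)
    (hdet : (YR z S).det ≠ 0) (hz : z χ₀ ≠ 0) :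
    (YR z S).det < (YR z (insert χ₀ S)).det := by
  have hpd := YR_posDef z S hdet
  rw [YR_insert z S h, det_add_replicateCol_mul_replicateRow (isUnit_iff_ne_zero.mpr hdet)]
  have h1 : (1 + replicateRow Unit (z χ₀) * (YR z S)⁻¹ * replicateCol Unit (z χ₀)).det
      = 1 + z χ₀ ⬝ᵥ ((YR z S)⁻¹ *ᵥ z χ₀) := by
    rw [det_unique]
    simp only [Matrix.add_apply, Matrix.one_apply_eq]
    congr 1
    rw [Matrix.mul_assoc]
    simp [Matrix.mul_apply, dotProduct, mulVec]
  rw [h1]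
  have h2 : 0 < z χ₀ ⬝ᵥ ((YR z S)⁻¹ *ᵥ z χ₀) := by
    have := hpd.inv.dotProduct_mulVec_pos hz
    simpa using this
  have h3 := hpd.det_pos
  nlinarith

theorem exists_erase [DecidableEq X] (z : X → ι → ℝ) (S : Finset X)
    (hcard : Fintype.card ι < S.card) (hdet : (YR z S).det ≠ 0) :
    ∃ χ₀ ∈ S, (YR z (S.erase χ₀)).det ≠ 0 := by
  have hdep : ¬ LinearIndependent ℝ (fun χ : S => z χ) := by
    intro hli
    have := hli.fintype_card_le_finrank
    rw [Module.finrank_fintype_fun_eq_card, Fintype.card_coe] at this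
    omega
  rw [Fintype.not_linearIndependent_iff] at hdep
  obtain ⟨c, hc, ⟨χ₀, hχ₀S⟩, hc0⟩ := hdep
  refine ⟨χ₀, hχ₀S, fun h0 => hdet ?_⟩
  rw [← exists_mulVec_eq_zero_iff] at h0 ⊢
  obtain ⟨v, hv, hv0⟩ := h0
  refine ⟨v, hv, ?_⟩
  have hq : ∑ χ ∈ S.erase χ₀, (z χ ⬝ᵥ v) ^ 2 = 0 := by
    rw [← YR_quad, hv0, dotProduct_zero]
  have hz : ∀ χ ∈ S.erase χ₀, z χ ⬝ᵥ v = 0 := by
    intro χ hχ
    have := (Finset.sum_eq_zero_iff_of_nonneg (fun χ _ => sq_nonneg (z χ ⬝ᵥ v))).mp hq χ hχ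
    rwa [pow_eq_zero_iff (two_ne_zero)] at this
  have hz0 : z χ₀ ⬝ᵥ v = 0 := by
    have h1 : (∑ χ : S, c χ • z χ) ⬝ᵥ v = 0 := by rw [hc, zero_dotProduct]
    rw [sum_dotProduct] at h1
    rw [Finset.sum_eq_single (⟨χ₀, hχ₀S⟩ : S)] at h1
    · rw [smul_dotProduct, smul_eq_mul] at h1
      exact (mul_eq_zero.mp h1).resolve_left hc0
    · intro b _ hb
      rw [smul_dotProduct, hz b (Finset.mem_erase.mpr ⟨fun h => hb (Subtype.ext h), b.2⟩), smul_zero]
    · intro h; exact absurd (Finset.mem_univ _) h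
  rw [YR_mulVec]
  refine Finset.sum_eq_zero fun χ hχ => ?_
  by_cases h : χ = χ₀
  · rw [h, hz0, zero_smul]
  · rw [hz χ (Finset.mem_erase.mpr ⟨h, hχ⟩), zero_smul]

/-- the integral version -/
def YI (Z : Matrix X ι ℤ) (S : Finset X) : Matrix ι ι ℤ := ∑ χ ∈ S, vecMulVec (Z χ) (Z χ)

theorem YI_cast (Z : Matrix X ι ℤ) (S : Finset X) :
    ((YI Z S).det : ℝ) = (YR (fun χ i => (Z χ i : ℝ)) S).det := by
  have : YR (fun χ i => (Z χ i : ℝ)) S = (Int.castRingHom ℝ).mapMatrix (YI Z S) := by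
    ext i j
    rw [YR_apply]
    simp [YI, Matrix.sum_apply, vecMulVec_apply]
  rw [this, ← RingHom.map_det]
  rfl

theorem claim [DecidableEq X] (Z : Matrix X ι ℤ) (hrow : ∀ χ, Z χ ≠ 0) :
    ∀ (n : ℕ) (S : Finset X), S.card = n → (YI Z S).det ≠ 0 →
      (S.card : ℤ) + 1 ≤ (YI Z S).det + Fintype.card ι := by
  intro n
  induction n with
  | zero =>
    intro S hS hdet
    have hR : (YR (fun χ i => (Z χ i : ℝ)) S).det ≠ 0 := by
      rw [← YI_cast]; exact_mod_cast hdet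
    have hpos := (YR_posDef _ S hR).det_pos
    rw [← YI_cast] at hpos
    have hpos' : 0 < (YI Z S).det := by exact_mod_cast hpos
    rw [hS]
    have : (0 : ℤ) ≤ Fintype.card ι := Int.natCast_nonneg _
    push_cast
    omega
  | succ n ih =>
    intro S hS hdet
    have hR : (YR (fun χ i => (Z χ i : ℝ)) S).det ≠ 0 := by
      rw [← YI_cast]; exact_mod_cast hdet
    have hpos := (YR_posDef _ S hR).det_pos
    rw [← YI_cast] at hpos
    have hpos' : 0 < (YI Z S).det := by exact_mod_cast hpos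
    by_cases hle : S.card ≤ Fintype.card ι
    · have : (S.card : ℤ) ≤ Fintype.card ι := by exact_mod_cast hle
      omega
    · obtain ⟨χ₀, hχ₀, hne⟩ := exists_erase _ S (not_le.mp hle) hR
      have hne' : (YI Z (S.erase χ₀)).det ≠ 0 := by
        intro h
        apply hne
        rw [← YI_cast, h]
        simp
      have hc : (S.erase χ₀).card = n := by
        rw [Finset.card_erase_of_mem hχ₀, hS]; rfl
      have h1 := ih (S.erase χ₀) hc hne'
      have hz : (fun i => (Z χ₀ i : ℝ)) ≠ 0 := by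
        intro h
        apply hrow χ₀
        ext i
        have := congrFun h i
        simpa using this
      have h2 := det_insert_gt (fun χ i => (Z χ i : ℝ)) (S.erase χ₀) (Finset.notMem_erase χ₀ S)
        hne hz
      rw [Finset.insert_erase hχ₀, ← YI_cast, ← YI_cast] at h2
      have h3 : (YI Z (S.erase χ₀)).det < (YI Z S).det := by exact_mod_cast h2
      rw [hc] at h1
      rw [hS]
      push_cast
      omega

/-- **BF-A1**. -/
theorem gram_det_ge {X ι : Type*} [Fintype X] [Fintype ι] [DecidableEq ι]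
    (Z : Matrix X ι ℤ) (hrow : ∀ χ, Z χ ≠ 0) (hdet : (Zᵀ * Z).det ≠ 0) :
    (Fintype.card X : ℤ) + 1 ≤ (Zᵀ * Z).det + Fintype.card ι := by
  classical
  have h : Zᵀ * Z = YI Z Finset.univ := by
    ext i j
    simp [YI, Matrix.sum_apply, vecMulVec_apply, Matrix.mul_apply]
  rw [h] at hdet ⊢
  have := claim Z hrow _ Finset.univ rfl hdet
  rwa [Finset.card_univ] at this

end Cfsg.Agent.Lib.Helper1.BF
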