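import Mathlib
import Cfsg.Agent.Lib.Helper1.CTGroup

set_option autoImplicit false

/-! Finite groups in which the centraliser of every involution is abelian: local structure. -/

namespace Cfsg.Agent.Lib.Helper1.IA

open Cfsg.Agent.Lib.Helper1.CT (Cn mem_Cn self_mem_Cn NN DD mem_DD)

variable {G : Type*} [Group G]

/-- centralisers of involutions are abelian -/
def HI (G : Type*) [Group G] : Prop :=
  ∀ z a b : G, z ≠ 1 → z * z = 1 → Commute a z → Commute b z → Commute a b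

/-- dihedral lemma: two involutions that do not commute are conjugate under an involution. -/
theorem exists_invol_conj [Finite G] (h : HI G) {t u : G} (ht : t * t = 1)
    (hu : u * u = 1) (hnc : ¬ Commute u t) :
    ∃ v : G, v * v = 1 ∧ v * t * v⁻¹ = u ∧ v ∈ Subgroup.closure {t, u} := by
  set x := t * u with hx
  have htinv : t⁻¹ = t := inv_eq_of_mul_eq_one_left ht
  have huinv : u⁻¹ = u := inv_eq_of_mul_eq_one_left hu
  have hxinv : x⁻¹ = u * t := by rw [hx, mul_inv_rev, htinv, huinv]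
  have htx : t * x * t = x⁻¹ := by
    rw [hxinv, hx, ← mul_assoc, ht, one_mul]
  have htx' : t * x * t⁻¹ = x⁻¹ := by rw [htinv, htx]
  have hux' : u * x * u⁻¹ = x⁻¹ := by
    rw [hxinv, hx, huinv, mul_assoc, mul_assoc, hu, mul_one]
  have htxk : ∀ k : ℕ, t * x ^ k * t⁻¹ = (x ^ k)⁻¹ := by
    intro k
    rw [← conj_pow, htx', inv_pow]
  have huxk : ∀ k : ℕ, u * x ^ k * u⁻¹ = (x ^ k)⁻¹ := by
    intro k
    rw [← conj_pow, hux', inv_pow]
  have hpos : 0 < orderOf x := orderOf_pos x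
  rcases Nat.even_or_odd' (orderOf x) with ⟨j, hj | hj⟩
  · exfalso
    have hj0 : 0 < j := by omega
    have hz1 : x ^ j ≠ 1 := by
      intro h1
      have := orderOf_le_of_pow_eq_one hj0 h1
      omega
    have hz2 : x ^ j * x ^ j = 1 := by
      rw [← pow_add, ← two_mul, ← hj, pow_orderOf_eq_one]
    have hzinv : (x ^ j)⁻¹ = x ^ j := inv_eq_of_mul_eq_one_left hz2
    have c1 : Commute t (x ^ j) := by
      have := htxk j
      rw [hzinv] at this
      exact mul_inv_eq_iff_eq_mul.1 this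
    have c2 : Commute u (x ^ j) := by
      have := huxk j
      rw [hzinv] at this
      exact mul_inv_eq_iff_eq_mul.1 this
    exact hnc (h (x ^ j) u t hz1 hz2 c2 c1)
  · refine ⟨x ^ j * t, ?_, ?_, ?_⟩
    · have := htxk j
      rw [htinv] at this
      calc x ^ j * t * (x ^ j * t) = x ^ j * (t * x ^ j * t) := by group
        _ = 1 := by rw [this, mul_inv_cancel]
    · have h1 : t * (x ^ j)⁻¹ = x ^ j * t := by
        have := htxk j
        have h2 : t * x ^ j = (x ^ j)⁻¹ * t := mul_inv_eq_iff_eq_mul.1 this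
        calc t * (x ^ j)⁻¹ = x ^ j * ((x ^ j)⁻¹ * t) * (x ^ j)⁻¹ := by group
          _ = x ^ j * (t * x ^ j) * (x ^ j)⁻¹ := by rw [h2]
          _ = x ^ j * t := by group
      have h3 : x ^ j * x ^ j = x⁻¹ := by
        have : x ^ j * x ^ j * x = 1 := by
          rw [← pow_add, ← pow_succ, ← two_mul, ← hj, pow_orderOf_eq_one]
        exact eq_inv_of_mul_eq_one_left this
      calc x ^ j * t * t * (x ^ j * t)⁻¹ = x ^ j * (t * t) * (t⁻¹ * (x ^ j)⁻¹) := by group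
        _ = x ^ j * (t * (x ^ j)⁻¹) := by rw [ht, htinv, mul_one]
        _ = x ^ j * x ^ j * t := by rw [h1, mul_assoc]
        _ = u := by rw [h3, hxinv, mul_assoc, ht, mul_one]
    · have h1 : t ∈ Subgroup.closure {t, u} := Subgroup.subset_closure (Or.inl rfl)
      have h2 : u ∈ Subgroup.closure {t, u} := Subgroup.subset_closure (Or.inr rfl)
      exact mul_mem (pow_mem (mul_mem h1 h2) j) h1

/-- context: involution centralisers abelian, with an involution `t` -/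
structure Ctx (t : G) : Prop where
  hi : HI G
  t1 : t ≠ 1
  tt : t * t = 1

namespace Ctx

variable {t : G}

theorem tinv (C : Ctx t) : t⁻¹ = t := inv_eq_of_mul_eq_one_left C.tt

theorem A_le_N : Cn t ≤ NN t := Subgroup.le_normalizer

theorem comm (C : Ctx t) {a b : G} (ha : a ∈ Cn t) (hb : b ∈ Cn t) : Commute a b :=
  C.hi t a b C.t1 C.tt (mem_Cn.1 ha) (mem_Cn.1 hb)

/-- the centraliser of an involution of `A` is `A` -/
theorem Cn_eq (C : Ctx t) {a : G} (ha : a ∈ Cn t) (ha1 : a ≠ 1) (haa : a * a = 1) :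
    Cn a = Cn t := by
  ext z
  constructor
  · intro hz
    exact mem_Cn.2 (C.hi a z t ha1 haa (mem_Cn.1 hz) (mem_Cn.1 ha).symm)
  · intro hz
    exact mem_Cn.2 (C.comm hz ha)

theorem conj_mem (_C : Ctx t) {n a : G} (hn : n ∈ NN t) (ha : a ∈ Cn t) : n * a * n⁻¹ ∈ Cn t :=
  (Subgroup.mem_normalizer_iff.1 hn a).1 ha

theorem conj_ne_one {g a : G} (ha1 : a ≠ 1) : g * a * g⁻¹ ≠ 1 := by
  intro h
  apply ha1
  have : g * a = g := by simpa using mul_inv_eq_one.1 h
  simpa using this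

theorem conj_sq {g a : G} (haa : a * a = 1) : g * a * g⁻¹ * (g * a * g⁻¹) = 1 := by
  calc g * a * g⁻¹ * (g * a * g⁻¹) = g * (a * a) * g⁻¹ := by group
    _ = 1 := by rw [haa]; group

theorem mem_N_of (C : Ctx t) {a g : G} (ha : a ∈ Cn t) (ha1 : a ≠ 1) (haa : a * a = 1)
    (hg : g * a * g⁻¹ ∈ Cn t) : g ∈ NN t := by
  have hg1 : g * a * g⁻¹ ≠ 1 := conj_ne_one ha1
  have hgg : g * a * g⁻¹ * (g * a * g⁻¹) = 1 := conj_sq haa
  rw [Subgroup.mem_normalizer_iff]
  intro h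
  constructor
  · intro hh
    rw [← C.Cn_eq hg hg1 hgg, mem_Cn]
    have : Commute h a := C.comm hh ha
    show g * h * g⁻¹ * (g * a * g⁻¹) = g * a * g⁻¹ * (g * h * g⁻¹)
    calc g * h * g⁻¹ * (g * a * g⁻¹) = g * (h * a) * g⁻¹ := by group
      _ = g * (a * h) * g⁻¹ := by rw [this.eq]
      _ = _ := by group
  · intro hh
    rw [← C.Cn_eq ha ha1 haa, mem_Cn]
    have : Commute (g * h * g⁻¹) (g * a * g⁻¹) := C.comm hh hg
    show h * a = a * h
    have e : g * (h * a) * g⁻¹ = g * (a * h) * g⁻¹ := by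
      calc g * (h * a) * g⁻¹ = g * h * g⁻¹ * (g * a * g⁻¹) := by group
        _ = g * a * g⁻¹ * (g * h * g⁻¹) := this.eq
        _ = _ := by group
    exact mul_left_cancel (mul_right_cancel e)

/-- involutions of `N` lie in `A` -/
theorem invol_mem_A (C : Ctx t) {v : G} (hv : v * v = 1) (hvN : v ∈ NN t) : v ∈ Cn t := by
  have hvinv : v⁻¹ = v := inv_eq_of_mul_eq_one_left hv
  set t' := v * t * v⁻¹ with ht'
  have ht'A : t' ∈ Cn t := C.conj_mem hvN (self_mem_Cn t)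
  by_cases h : t' = t
  · rw [mem_Cn]
    exact mul_inv_eq_iff_eq_mul.1 h
  · have hc : Commute t t' := C.comm (self_mem_Cn t) ht'A
    have hprod : t * t' ∈ Cn t := mul_mem (self_mem_Cn t) ht'A
    have ht't' : t' * t' = 1 := conj_sq C.tt
    have hne : t * t' ≠ 1 := by
      intro h1
      apply h
      have : t' = t⁻¹ := eq_inv_of_mul_eq_one_right h1
      rw [this, C.tinv]
    have hsq : t * t' * (t * t') = 1 := by
      calc t * t' * (t * t') = t * (t' * t) * t' := by group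
        _ = t * (t * t') * t' := by rw [hc.eq]
        _ = (t * t) * (t' * t') := by group
        _ = 1 := by rw [C.tt, ht't', one_mul]
    rw [← C.Cn_eq hprod hne hsq, mem_Cn]
    have h2 : v * t' * v⁻¹ = t := by
      rw [ht', hvinv]
      calc v * (v * t * v) * v = (v * v) * t * (v * v) := by group
        _ = t := by rw [hv, one_mul, mul_one]
    show v * (t * t') = t * t' * v
    calc v * (t * t') = (v * t * v⁻¹) * (v * t' * v⁻¹) * v := by group
      _ = t' * t * v := by rw [h2]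
      _ = t * t' * v := by rw [hc.eq]

/-- for `g ∉ N` there is an involution in the coset `g A` -/
theorem exists_invol_coset [Finite G] (C : Ctx t) {g : G} (hg : g ∉ NN t) :
    ∃ v : G, v * v = 1 ∧ v ∉ NN t ∧ g⁻¹ * v ∈ Cn t ∧ v * t * v⁻¹ = g * t * g⁻¹ := by
  have h1 : g * t * g⁻¹ ∉ Cn t := fun h => hg (C.mem_N_of (self_mem_Cn t) C.t1 C.tt h)
  have hu : g * t * g⁻¹ * (g * t * g⁻¹) = 1 := conj_sq C.tt
  obtain ⟨v, hv, hvt, -⟩ := exists_invol_conj C.hi C.tt hu (fun h => h1 (mem_Cn.2 h))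
  refine ⟨v, hv, ?_, ?_, hvt⟩
  · intro hvN
    exact h1 (hvt ▸ C.conj_mem hvN (self_mem_Cn t))
  · rw [mem_Cn]
    show g⁻¹ * v * t = t * (g⁻¹ * v)
    have : v * t = g * t * g⁻¹ * v := mul_inv_eq_iff_eq_mul.1 hvt
    calc g⁻¹ * v * t = g⁻¹ * (v * t) := by group
      _ = g⁻¹ * (g * t * g⁻¹ * v) := by rw [this]
      _ = _ := by group

end Ctx

/-- context: additionally an involution `u` outside `N` -/
structure Ctx2 (t u : G) : Prop extends Ctx t where
  uu : u * u = 1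
  uN : u ∉ NN t

namespace Ctx2

variable {t u : G}

theorem uinv (C : Ctx2 t u) : u⁻¹ = u := inv_eq_of_mul_eq_one_left C.uu

theorem u1 (C : Ctx2 t u) : u ≠ 1 := fun h => C.uN (h ▸ one_mem _)

theorem exists_D [Finite G] (C : Ctx2 t u) {a : G} (ha : a ∈ Cn t) (ha1 : a ≠ 1)
    (haa : a * a = 1) : ∃ v : G, v * v = 1 ∧ u * v ∈ DD t u ∧ (u * v) * t * (u * v)⁻¹ = a ∧
      u * (u * v) * u⁻¹ = (u * v)⁻¹ := by
  have h1 : u * a * u⁻¹ ∉ Cn t := fun h => C.uN (C.toCtx.mem_N_of ha ha1 haa h)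
  have hu : u * a * u⁻¹ * (u * a * u⁻¹) = 1 := Ctx.conj_sq haa
  obtain ⟨v, hv, hvt, -⟩ := exists_invol_conj C.hi C.tt hu (fun h => h1 (mem_Cn.2 h))
  have hvinv : v⁻¹ = v := inv_eq_of_mul_eq_one_left hv
  have e1 : (u * v) * t * (u * v)⁻¹ = a := by
    calc (u * v) * t * (u * v)⁻¹ = u * (v * t * v⁻¹) * u⁻¹ := by group
      _ = u * (u * a * u⁻¹) * u⁻¹ := by rw [hvt]
      _ = (u * u) * a * (u * u)⁻¹ := by group
      _ = a := by rw [C.uu]; group
  have e2 : u * (u * v) * u⁻¹ = (u * v)⁻¹ := by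
    rw [mul_inv_rev, hvinv, C.uinv, ← mul_assoc, C.uu, one_mul]
  have hN : u * v ∈ NN t := C.toCtx.mem_N_of (self_mem_Cn t) C.t1 C.tt (e1 ▸ ha)
  refine ⟨v, hv, mem_DD.2 ⟨hN, ?_⟩, e1, e2⟩
  rw [e2]
  exact inv_mem hN

theorem conj_t (C : Ctx2 t u) {n : G} (hn : n ∈ NN t) :
    n * t * n⁻¹ ∈ Cn t ∧ n * t * n⁻¹ ≠ 1 ∧ (n * t * n⁻¹) * (n * t * n⁻¹) = 1 :=
  ⟨C.toCtx.conj_mem hn (self_mem_Cn t), Ctx.conj_ne_one C.t1, Ctx.conj_sq C.tt⟩

/-- `N = D A`, with the element of `D` a product of two involutions -/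
theorem N_eq [Finite G] (C : Ctx2 t u) {n : G} (hn : n ∈ NN t) :
    ∃ v : G, v * v = 1 ∧ u * v ∈ DD t u ∧ (u * v)⁻¹ * n ∈ Cn t := by
  obtain ⟨h1, h2, h3⟩ := C.conj_t hn
  obtain ⟨v, hv, hd, e1, -⟩ := C.exists_D h1 h2 h3
  refine ⟨v, hv, hd, ?_⟩
  set d := u * v with hdd
  rw [mem_Cn]
  show d⁻¹ * n * t = t * (d⁻¹ * n)
  have : d * t = n * t * n⁻¹ * d := mul_inv_eq_iff_eq_mul.1 e1
  have h4 : t = d⁻¹ * (n * t * n⁻¹) * d := by
    calc t = d⁻¹ * (d * t) := by group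
      _ = d⁻¹ * (n * t * n⁻¹ * d) := by rw [this]
      _ = _ := by group
  calc d⁻¹ * n * t = (d⁻¹ * (n * t * n⁻¹) * d) * (d⁻¹ * n) := by group
    _ = t * (d⁻¹ * n) := by rw [← h4]

end Ctx2

end Cfsg.Agent.Lib.Helper1.IA
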