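import Mathlib
import Cfsg.Agent.Lib.Helper1.InvAb1

set_option autoImplicit false

/-! Involution centralisers abelian, and `A = C(t)` a TI-subgroup: local structure. -/

namespace Cfsg.Agent.Lib.Helper1.IA

open Cfsg.Agent.Lib.Helper1.CT (Cn mem_Cn self_mem_Cn NN DD mem_DD)

variable {G : Type*} [Group G]

/-- context: `A = C(t)` is moreover a TI-subgroup -/
structure Ctx2T (t u : G) : Prop extends Ctx2 t u where
  ti : ∀ a ∈ Cn t, a ≠ 1 → ∀ g : G, g * a * g⁻¹ ∈ Cn t → g ∈ NN t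

namespace Ctx2T

variable {t u : G}

theorem toCtx' (C : Ctx2T t u) : Ctx t := C.toCtx2.toCtx

theorem uinv (C : Ctx2T t u) : u⁻¹ = u := C.toCtx2.uinv

theorem ti' (C : Ctx2T t u) {x : G} (hx : x ∈ Cn t) (hx' : u * x * u⁻¹ ∈ Cn t) : x = 1 := by
  by_contra h
  exact C.uN (C.ti x hx h u hx')

theorem exists_D' [Finite G] (C : Ctx2T t u) {a : G} (ha : a ∈ Cn t) (ha1 : a ≠ 1)
    (haa : a * a = 1) : ∃ d ∈ DD t u, d * t * d⁻¹ = a ∧ u * d * u⁻¹ = d⁻¹ := by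
  obtain ⟨v, -, h1, h2, h3⟩ := C.toCtx2.exists_D ha ha1 haa
  exact ⟨u * v, h1, h2, h3⟩

theorem N_eq [Finite G] (C : Ctx2T t u) {n : G} (hn : n ∈ NN t) :
    ∃ d ∈ DD t u, d⁻¹ * n ∈ Cn t := by
  obtain ⟨v, -, h1, h2⟩ := C.toCtx2.N_eq hn
  exact ⟨u * v, h1, h2⟩

theorem D_inf_A [Finite G] (C : Ctx2T t u) {k : G} (hk : k ∈ DD t u) (hkA : k ∈ Cn t) : k = 1 := by
  by_contra hk1
  obtain ⟨hkN, hk'N⟩ := mem_DD.1 hk
  set k' := u * k * u⁻¹ with hk'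
  have huk' : u * k' * u⁻¹ = k := by
    rw [hk', C.uinv]
    calc u * (u * k * u) * u = (u * u) * k * (u * u) := by group
      _ = k := by rw [C.uu, one_mul, mul_one]
  have hc1 : k * k' * k⁻¹ * k'⁻¹ ∈ Cn t := by
    have : k' * k⁻¹ * k'⁻¹ ∈ Cn t := C.toCtx'.conj_mem hk'N (inv_mem hkA)
    have h2 := mul_mem hkA this
    have e : k * (k' * k⁻¹ * k'⁻¹) = k * k' * k⁻¹ * k'⁻¹ := by group
    rwa [e] at h2
  have hc2 : u * (k * k' * k⁻¹ * k'⁻¹) * u⁻¹ ∈ Cn t := by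
    have e : u * (k * k' * k⁻¹ * k'⁻¹) * u⁻¹
        = (u * k * u⁻¹) * (u * k' * u⁻¹) * (u * k * u⁻¹)⁻¹ * (u * k' * u⁻¹)⁻¹ := by group
    rw [e, huk', ← hk']
    have : k' * k * k'⁻¹ ∈ Cn t := C.toCtx'.conj_mem hk'N hkA
    exact mul_mem this (inv_mem hkA)
  have hc : k * k' * k⁻¹ * k'⁻¹ = 1 := C.ti' hc1 hc2
  have hcomm : Commute k' k := by
    show k' * k = k * k'
    have : k * k' * k⁻¹ = k' := by simpa using mul_inv_eq_one.1 hc
    exact (mul_inv_eq_iff_eq_mul.1 this).symm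
  have hk'A : k' ∉ Cn t := fun h => hk1 (C.ti' hkA h)
  obtain ⟨h1, h2, h3⟩ := C.toCtx2.conj_t hk'N
  obtain ⟨v, hv, hd, e1, e2⟩ := C.toCtx2.exists_D h1 h2 h3
  set d := u * v with hdd
  have hm : d⁻¹ * k' ∈ Cn t := by
    rw [mem_Cn]
    show d⁻¹ * k' * t = t * (d⁻¹ * k')
    have : k' * t = d * t * d⁻¹ * k' := mul_inv_eq_iff_eq_mul.1 e1.symm
    calc d⁻¹ * k' * t = d⁻¹ * (k' * t) := by group
      _ = d⁻¹ * (d * t * d⁻¹ * k') := by rw [this]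
      _ = _ := by group
  have hd1 : d ≠ 1 := by
    intro h
    rw [h, inv_one, one_mul] at hm
    exact hk'A hm
  have hdk : Commute d k := by
    have e : d = k' * (d⁻¹ * k')⁻¹ := by group
    rw [e]
    exact hcomm.mul_left (C.toCtx'.comm hm hkA).inv_left
  have hvd : v = u * d := by rw [hdd, ← mul_assoc, C.uu, one_mul]
  have hvk : v * k * v⁻¹ = k' := by
    rw [hvd]
    calc u * d * k * (u * d)⁻¹ = u * (d * k) * d⁻¹ * u⁻¹ := by group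
      _ = u * (k * d) * d⁻¹ * u⁻¹ := by rw [hdk.eq]
      _ = u * k * u⁻¹ := by group
  have hvk' : v * k' * v⁻¹ = k := by
    rw [← hvk]
    calc v * (v * k * v⁻¹) * v⁻¹ = (v * v) * k * (v * v)⁻¹ := by group
      _ = k := by rw [hv]; group
  have hyu : u * (k * k') * u⁻¹ = k * k' := by
    calc u * (k * k') * u⁻¹ = (u * k * u⁻¹) * (u * k' * u⁻¹) := by group
      _ = k' * k := by rw [huk']
      _ = k * k' := hcomm.eq
  have hyv : v * (k * k') * v⁻¹ = k * k' := by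
    calc v * (k * k') * v⁻¹ = (v * k * v⁻¹) * (v * k' * v⁻¹) := by group
      _ = k' * k := by rw [hvk, hvk']
      _ = k * k' := hcomm.eq
  have hy1 : k * k' ≠ 1 := by
    intro h
    apply hk'A
    have : k' = k⁻¹ := eq_inv_of_mul_eq_one_right h
    rw [this]
    exact inv_mem hkA
  have hut : ¬ Commute u t := fun h => C.uN (Ctx.A_le_N (mem_Cn.2 h))
  have hvN : v ∉ NN t := by
    intro h
    apply C.uN
    have e : u = d * v⁻¹ := by rw [hdd]; group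
    rw [e]
    exact mul_mem (mem_DD.1 hd).1 (inv_mem h)
  have hvt : ¬ Commute v t := fun h => hvN (Ctx.A_le_N (mem_Cn.2 h))
  obtain ⟨w, -, hw, -⟩ := exists_invol_conj C.hi C.tt C.uu hut
  obtain ⟨w', -, hw', -⟩ := exists_invol_conj C.hi C.tt hv hvt
  have key : ∀ (z r : G), z * t * z⁻¹ = r → r * (k * k') * r⁻¹ = k * k' →
      z⁻¹ * (k * k') * z ∈ Cn t := by
    intro z r hz hr
    rw [mem_Cn]
    show z⁻¹ * (k * k') * z * t = t * (z⁻¹ * (k * k') * z)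
    have h5 : r * (k * k') = k * k' * r := mul_inv_eq_iff_eq_mul.1 hr
    calc z⁻¹ * (k * k') * z * t = z⁻¹ * ((k * k') * (z * t * z⁻¹)) * z := by group
      _ = z⁻¹ * ((z * t * z⁻¹) * (k * k')) * z := by rw [hz, h5]
      _ = _ := by group
  have ha1 := key w u hw hyu
  have ha2 := key w' v hw' hyv
  have hne : w⁻¹ * (k * k') * w ≠ 1 := by
    have := Ctx.conj_ne_one (g := w⁻¹) hy1
    rwa [inv_inv] at this
  have hn : w'⁻¹ * w ∈ NN t := by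
    apply C.ti _ ha1 hne
    have e : w'⁻¹ * w * (w⁻¹ * (k * k') * w) * (w'⁻¹ * w)⁻¹ = w'⁻¹ * (k * k') * w' := by group
    rw [e]
    exact ha2
  have h5 : (w'⁻¹ * w) * t * (w'⁻¹ * w)⁻¹ ∈ Cn t := C.toCtx'.conj_mem hn (self_mem_Cn t)
  have h6 : (w'⁻¹ * w) * t * (w'⁻¹ * w)⁻¹ = w'⁻¹ * u * w' := by
    rw [← hw]; group
  rw [h6, mem_Cn] at h5
  have huv : u * v = v * u := by
    have h7 : w'⁻¹ * u * w' * t = t * (w'⁻¹ * u * w') := h5
    calc u * v = w' * ((w'⁻¹ * u * w') * t) * w'⁻¹ := by rw [← hw']; group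
      _ = w' * (t * (w'⁻¹ * u * w')) * w'⁻¹ := by rw [h7]
      _ = v * u := by rw [← hw']; group
  have hdd1 : d * d = 1 := by
    rw [hdd]
    calc u * v * (u * v) = u * (v * u) * v := by group
      _ = u * (u * v) * v := by rw [huv]
      _ = (u * u) * (v * v) := by group
      _ = 1 := by rw [C.uu, hv, one_mul]
  have hdA : d ∈ Cn t := C.toCtx'.invol_mem_A hdd1 (mem_DD.1 hd).1
  have h8 : u * d * u⁻¹ ∈ Cn t := by
    rw [e2]
    exact inv_mem hdA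
  exact hd1 (C.ti' hdA h8)

theorem D_inj [Finite G] (C : Ctx2T t u) {d d' : G} (hd : d ∈ DD t u) (hd' : d' ∈ DD t u)
    (h : d * t * d⁻¹ = d' * t * d'⁻¹) : d = d' := by
  have h1 : d'⁻¹ * d ∈ DD t u := mul_mem (inv_mem hd') hd
  have h2 : d'⁻¹ * d ∈ Cn t := by
    rw [mem_Cn]
    show d'⁻¹ * d * t = t * (d'⁻¹ * d)
    have : d * t = d' * t * d'⁻¹ * d := mul_inv_eq_iff_eq_mul.1 h
    calc d'⁻¹ * d * t = d'⁻¹ * (d * t) := by group
      _ = d'⁻¹ * (d' * t * d'⁻¹ * d) := by rw [this]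
      _ = _ := by group
  have := C.D_inf_A h1 h2
  exact (inv_mul_eq_one.1 this).symm


theorem D_inv [Finite G] (C : Ctx2T t u) {d : G} (hd : d ∈ DD t u) : u * d * u⁻¹ = d⁻¹ := by
  obtain ⟨h1, h2, h3⟩ := C.toCtx2.conj_t (mem_DD.1 hd).1
  obtain ⟨d', hd', e1, e2⟩ := C.exists_D' h1 h2 h3
  have := C.D_inj hd' hd e1
  rw [← this]
  exact e2


theorem D_comm [Finite G] (C : Ctx2T t u) {d d' : G} (hd : d ∈ DD t u) (hd' : d' ∈ DD t u) :
    d * d' = d' * d := by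
  have h1 := C.D_inv (mul_mem hd hd')
  have h2 := C.D_inv hd
  have h3 := C.D_inv hd'
  have e : u * (d * d') * u⁻¹ = (u * d * u⁻¹) * (u * d' * u⁻¹) := by group
  rw [e, h2, h3, mul_inv_rev] at h1
  have := congrArg Inv.inv h1
  simpa using this.symm


theorem D_sq [Finite G] (C : Ctx2T t u) {d : G} (hd : d ∈ DD t u) (h : d * d = 1) : d = 1 :=
  C.D_inf_A hd (C.toCtx'.invol_mem_A h (mem_DD.1 hd).1)


theorem Cn_le_N [Finite G] (C : Ctx2T t u) {d : G} (hd : d ∈ DD t u) (hd1 : d ≠ 1) :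
    Cn d ≤ NN t := by
  intro y hy
  by_contra hyN
  obtain ⟨v, hv, hvN, hn, -⟩ := C.toCtx'.exists_invol_coset hyN
  have C3 : Ctx2T t v := { C.toCtx' with uu := hv, uN := hvN, ti := C.ti }
  set n := y⁻¹ * v with hndef
  have hvy : v = y * n := by rw [hndef]; group
  have hvinv : v⁻¹ = v := inv_eq_of_mul_eq_one_left hv
  have hyd : y * d = d * y := mem_Cn.1 hy
  have hydi : y⁻¹ * d * y = d := by
    calc y⁻¹ * d * y = y⁻¹ * (d * y) := by group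
      _ = y⁻¹ * (y * d) := by rw [hyd]
      _ = d := by group
  have e : v * d * v⁻¹ = n⁻¹ * d * n := by
    calc v * d * v⁻¹ = v⁻¹ * d * v := by rw [hvinv]
      _ = n⁻¹ * (y⁻¹ * d * y) * n := by rw [hvy]; group
      _ = n⁻¹ * d * n := by rw [hydi]
  have hdN := (mem_DD.1 hd).1
  have hnN : n ∈ NN t := Ctx.A_le_N hn
  have hd3 : d ∈ DD t v := by
    refine mem_DD.2 ⟨hdN, ?_⟩
    rw [e]
    exact mul_mem (mul_mem (inv_mem hnN) hdN) hnN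
  have h1 := C3.D_inv hd3
  rw [e] at h1
  -- d⁻² ∈ A
  have h2 : n⁻¹ * (d * n * d⁻¹) ∈ Cn t := mul_mem (inv_mem hn) (C.toCtx'.conj_mem hdN hn)
  have e2 : n⁻¹ * (d * n * d⁻¹) = d⁻¹ * d⁻¹ := by
    calc n⁻¹ * (d * n * d⁻¹) = (n⁻¹ * d * n) * d⁻¹ := by group
      _ = d⁻¹ * d⁻¹ := by rw [h1]
  rw [e2] at h2
  have h3 : d⁻¹ * d⁻¹ = 1 := C.D_inf_A (mul_mem (inv_mem hd) (inv_mem hd)) h2
  have h4 : d⁻¹ = 1 := C.D_sq (inv_mem hd) h3
  exact hd1 (inv_eq_one.1 h4)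


theorem Cn_le_D [Finite G] (C : Ctx2T t u) {d : G} (hd : d ∈ DD t u) (hd1 : d ≠ 1) :
    Cn d ≤ DD t u := by
  intro y hy
  refine mem_DD.2 ⟨C.Cn_le_N hd hd1 hy, ?_⟩
  apply C.Cn_le_N hd hd1
  rw [mem_Cn]
  have h1 := C.D_inv hd
  have hyd : y * d = d * y := mem_Cn.1 hy
  have h2 : u * d⁻¹ * u⁻¹ = d := by
    have := congrArg Inv.inv h1
    simpa [mul_assoc] using this
  show u * y * u⁻¹ * d = d * (u * y * u⁻¹)
  have hyd' : y * d⁻¹ = d⁻¹ * y := by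
    calc y * d⁻¹ = d⁻¹ * (d * y) * d⁻¹ := by group
      _ = d⁻¹ * (y * d) * d⁻¹ := by rw [hyd]
      _ = d⁻¹ * y := by group
  calc u * y * u⁻¹ * d = u * y * u⁻¹ * (u * d⁻¹ * u⁻¹) := by rw [h2]
    _ = u * (y * d⁻¹) * u⁻¹ := by group
    _ = u * (d⁻¹ * y) * u⁻¹ := by rw [hyd']
    _ = (u * d⁻¹ * u⁻¹) * (u * y * u⁻¹) := by group
    _ = d * (u * y * u⁻¹) := by rw [h2]

/-- non-identity elements of `D` act fixed point freely on `A` -/
theorem A_free [Finite G] (C : Ctx2T t u) {d : G} (hd : d ∈ DD t u) (hd1 : d ≠ 1) {x : G}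
    (hx : x ∈ Cn t) (hc : x * d = d * x) : x = 1 :=
  C.D_inf_A (C.Cn_le_D hd hd1 (mem_Cn.2 hc)) hx

theorem Cn_eq' [Finite G] (C : Ctx2T t u) {a : G} (ha : a ∈ Cn t) (ha1 : a ≠ 1) :
    Cn a = Cn t := by
  ext y
  constructor
  · intro hy
    have hya : y * a = a * y := mem_Cn.1 hy
    have hyN : y ∈ NN t := by
      apply C.ti a ha ha1
      have : y * a * y⁻¹ = a := by rw [hya]; group
      rw [this]
      exact ha
    obtain ⟨d, hd, hm⟩ := C.N_eq hyN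
    by_cases hd1 : d = 1
    · rw [hd1, inv_one, one_mul] at hm
      exact hm
    · exfalso
      apply ha1
      apply C.A_free hd hd1 ha
      have hma : (d⁻¹ * y) * a = a * (d⁻¹ * y) := (C.toCtx'.comm hm ha).eq
      have e : d = y * (d⁻¹ * y)⁻¹ := by group
      have hma' : (d⁻¹ * y)⁻¹ * a = a * (d⁻¹ * y)⁻¹ := by
        calc (d⁻¹ * y)⁻¹ * a = (d⁻¹ * y)⁻¹ * (a * (d⁻¹ * y)) * (d⁻¹ * y)⁻¹ := by group
          _ = (d⁻¹ * y)⁻¹ * ((d⁻¹ * y) * a) * (d⁻¹ * y)⁻¹ := by rw [hma]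
          _ = _ := by group
      calc a * d = a * (y * (d⁻¹ * y)⁻¹) := by rw [← e]
        _ = (a * y) * (d⁻¹ * y)⁻¹ := by group
        _ = (y * a) * (d⁻¹ * y)⁻¹ := by rw [hya]
        _ = y * (a * (d⁻¹ * y)⁻¹) := by group
        _ = y * ((d⁻¹ * y)⁻¹ * a) := by rw [hma']
        _ = (y * (d⁻¹ * y)⁻¹) * a := by group
        _ = d * a := by rw [← e]
  · intro hy
    exact mem_Cn.2 (C.toCtx'.comm hy ha)

/-- `A` is transitive on the cosets of `N` other than `N` -/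
theorem A_trans [Finite G] (C : Ctx2T t u) {d : G} (hd : d ∈ DD t u) (hd1 : d ≠ 1) {u₁ : G}
    (C1 : Ctx2T t u₁) : ∃ a ∈ Cn t, (a * u)⁻¹ * u₁ ∈ NN t := by
  have hdN := (mem_DD.1 hd).1
  obtain ⟨h1, h2, h3⟩ := C.toCtx2.conj_t hdN
  obtain ⟨d₁, hd₁, e1, e2⟩ := C1.exists_D' h1 h2 h3
  -- d₁ = d b with b ∈ A
  have hb : d⁻¹ * d₁ ∈ Cn t := by
    rw [mem_Cn]
    show d⁻¹ * d₁ * t = t * (d⁻¹ * d₁)
    have : d₁ * t = d * t * d⁻¹ * d₁ := mul_inv_eq_iff_eq_mul.1 e1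
    calc d⁻¹ * d₁ * t = d⁻¹ * (d₁ * t) := by group
      _ = d⁻¹ * (d * t * d⁻¹ * d₁) := by rw [this]
      _ = _ := by group
  -- the map a ↦ d⁻¹ a d a⁻¹ on A is injective hence surjective
  let φ : Cn t → Cn t := fun a => ⟨d⁻¹ * a * d * (a : G)⁻¹, by
    have : d⁻¹ * (a : G) * (d⁻¹)⁻¹ ∈ Cn t := C.toCtx'.conj_mem (inv_mem hdN) a.2
    rw [inv_inv] at this
    exact mul_mem this (inv_mem a.2)⟩
  have hφ : Function.Injective φ := by
    intro a a' haa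
    have h := congrArg Subtype.val haa
    change d⁻¹ * (a : G) * d * (a : G)⁻¹ = d⁻¹ * (a' : G) * d * (a' : G)⁻¹ at h
    have hc : ((a' : G)⁻¹ * a) * d = d * ((a' : G)⁻¹ * a) := by
      have h5 : (a : G) * d * (a : G)⁻¹ = (a' : G) * d * (a' : G)⁻¹ := by
        have := congrArg (fun z => d * z) h
        simpa [mul_assoc] using this
      have h6 : (a : G) * d = (a' : G) * d * (a' : G)⁻¹ * a := mul_inv_eq_iff_eq_mul.1 h5
      calc ((a' : G)⁻¹ * a) * d = (a' : G)⁻¹ * ((a : G) * d) := by group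
        _ = (a' : G)⁻¹ * ((a' : G) * d * (a' : G)⁻¹ * a) := by rw [h6]
        _ = _ := by group
    by_contra hne
    have hx : (a' : G)⁻¹ * a ∈ Cn t := mul_mem (inv_mem a'.2) a.2
    have hx1 : (a' : G)⁻¹ * a ≠ 1 := by
      intro h7
      exact hne (Subtype.ext (inv_mul_eq_one.1 h7).symm)
    exact hx1 (C.A_free hd hd1 hx hc)
  obtain ⟨a, ha⟩ := Finite.surjective_of_injective hφ ⟨d⁻¹ * d₁, hb⟩
  have ha' : d⁻¹ * (a : G) * d * (a : G)⁻¹ = d⁻¹ * d₁ := congrArg Subtype.val ha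
  have hd₁a : d₁ = (a : G) * d * (a : G)⁻¹ := by
    have := congrArg (fun z => d * z) ha'
    simpa [mul_assoc] using this.symm
  have hd₁1 : d₁ ≠ 1 := by
    intro h
    rw [h] at hd₁a
    apply hd1
    have : (a : G) * d = a := by simpa using (mul_inv_eq_one.1 hd₁a.symm)
    simpa using this
  refine ⟨a, a.2, ?_⟩
  -- w = (a u a⁻¹)⁻¹ u₁ commutes with d₁
  have hud := C.D_inv hd
  have hw : ((a : G) * u * (a : G)⁻¹)⁻¹ * u₁ ∈ Cn d₁ := by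
    rw [mem_Cn]
    have f1 : u₁ * d₁ = d₁⁻¹ * u₁ := mul_inv_eq_iff_eq_mul.1 e2
    have f2 : ((a : G) * u * (a : G)⁻¹) * d₁ * ((a : G) * u * (a : G)⁻¹)⁻¹ = d₁⁻¹ := by
      rw [hd₁a]
      calc ((a : G) * u * (a : G)⁻¹) * ((a : G) * d * (a : G)⁻¹) * ((a : G) * u * (a : G)⁻¹)⁻¹
          = (a : G) * (u * d * u⁻¹) * (a : G)⁻¹ := by group
        _ = (a : G) * d⁻¹ * (a : G)⁻¹ := by rw [hud]
        _ = _ := by group
    have f3 : ((a : G) * u * (a : G)⁻¹)⁻¹ * d₁⁻¹ = d₁ * ((a : G) * u * (a : G)⁻¹)⁻¹ := by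
      rw [← f2]; group
    show ((a : G) * u * (a : G)⁻¹)⁻¹ * u₁ * d₁ = d₁ * (((a : G) * u * (a : G)⁻¹)⁻¹ * u₁)
    rw [mul_assoc, f1, ← mul_assoc, f3, mul_assoc]
  have hwN := C1.Cn_le_N hd₁ hd₁1 hw
  have e : ((a : G) * u)⁻¹ * u₁ = (a : G)⁻¹ * (((a : G) * u * (a : G)⁻¹)⁻¹ * u₁) := by group
  rw [e]
  exact mul_mem (inv_mem (Ctx.A_le_N a.2)) hwN

end Ctx2T

end Cfsg.Agent.Lib.Helper1.IA
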