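import Cfsg.Agent.Lib.Helper80.LBM.Defs

set_option autoImplicit false
set_option linter.unusedSimpArgs false

/-!
# S2733 farm (helper80), piece [G]: the ES-library (restriction of scalars from `F(√μ)` to `F`)
-/

namespace Cfsg.Agent.Lib.Helper1.LBM

open Matrix QuadraticMap Cfsg.Agent.Lib.Helper80.LBM

section ES

variable {F : Type*} [Field F] (μ : F) {d : ℕ}

theorem g_re_sum {α : Type*} (s : Finset α) (f : α → EE μ) : (∑ i ∈ s, f i).re = ∑ i ∈ s, (f i).re :=
  map_sum (QuadraticAlgebra.reₗ (R := F) (a := μ) (b := 0)) f s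

theorem g_im_sum {α : Type*} (s : Finset α) (f : α → EE μ) : (∑ i ∈ s, f i).im = ∑ i ∈ s, (f i).im :=
  map_sum (QuadraticAlgebra.imₗ (R := F) (a := μ) (b := 0)) f s

/-- [G] ES-lib -/
theorem rho_one : rho μ (1 : Matrix (Fin d) (Fin d) (EE μ)) = 1 := by
  have h1 : (1 : Matrix (Fin d) (Fin d) (EE μ)).map (fun z => z.re) = 1 := by
    ext i j
    by_cases h : i = j
    · subst h; simp [QuadraticAlgebra.re_one]
    · simp [h]
  have h2 : (1 : Matrix (Fin d) (Fin d) (EE μ)).map (fun z => z.im) = 0 := by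
    ext i j
    by_cases h : i = j
    · subst h; simp [QuadraticAlgebra.im_one]
    · simp [h]
  unfold rho
  rw [h1, h2, smul_zero, fromBlocks_one]

theorem rho_mul (Z Z' : Matrix (Fin d) (Fin d) (EE μ)) : rho μ (Z * Z') = rho μ Z * rho μ Z' := by
  unfold rho
  rw [fromBlocks_multiply]
  congr 1
  · ext i j
    simp only [Matrix.map_apply, Matrix.mul_apply, Matrix.add_apply, Matrix.smul_apply, g_re_sum,
      QuadraticAlgebra.re_mul, Finset.sum_add_distrib, smul_eq_mul]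
  · ext i j
    simp only [Matrix.map_apply, Matrix.mul_apply, Matrix.add_apply, Matrix.smul_apply, g_im_sum,
      QuadraticAlgebra.im_mul, Finset.sum_add_distrib, smul_eq_mul, Finset.mul_sum]
    simp only [zero_mul, Finset.sum_const_zero, add_zero, mul_add]
    congr 1
    · rw [Finset.mul_sum]
      apply Finset.sum_congr rfl
      intro k _
      ring
    · rw [Finset.mul_sum]
      apply Finset.sum_congr rfl
      intro k _
      ring
  · ext i j
    simp only [Matrix.map_apply, Matrix.mul_apply, Matrix.add_apply, Matrix.smul_apply, g_im_sum,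
      QuadraticAlgebra.im_mul, Finset.sum_add_distrib, smul_eq_mul]
    simp only [zero_mul, Finset.sum_const_zero, add_zero]
    rw [add_comm]
  · ext i j
    simp only [Matrix.map_apply, Matrix.mul_apply, Matrix.add_apply, Matrix.smul_apply, g_re_sum,
      QuadraticAlgebra.re_mul, Finset.sum_add_distrib, smul_eq_mul]
    rw [add_comm]
    congr 1
    apply Finset.sum_congr rfl
    intro k _
    ring

theorem rho_injective : Function.Injective (rho μ : Matrix (Fin d) (Fin d) (EE μ) → _) := by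
  intro Z Z' h
  ext i j
  · have := congrFun (congrFun h (Sum.inl i)) (Sum.inl j)
    simpa [rho] using this
  · have := congrFun (congrFun h (Sum.inr i)) (Sum.inl j)
    simpa [rho] using this

theorem rho_transpose_Del (Z : Matrix (Fin d) (Fin d) (EE μ)) :
    (rho μ Z)ᵀ * Del μ d = Del μ d * rho μ Zᵀ := by
  unfold rho Del
  rw [fromBlocks_transpose, fromBlocks_multiply, fromBlocks_multiply]
  simp only [Matrix.mul_one, Matrix.mul_zero, Matrix.one_mul, Matrix.zero_mul, add_zero, zero_add,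
    Matrix.mul_smul, Matrix.smul_mul, Matrix.transpose_smul, Matrix.transpose_map, smul_zero]

theorem rho_algebraMap (c : F) :
    rho μ (algebraMap F (EE μ) c • (1 : Matrix (Fin d) (Fin d) (EE μ))) = c • 1 := by
  have h1 : (algebraMap F (EE μ) c • (1 : Matrix (Fin d) (Fin d) (EE μ))).map (fun z => z.re)
      = c • 1 := by
    ext i j
    by_cases h : i = j
    · subst h; simp [QuadraticAlgebra.re_one, QuadraticAlgebra.im_one]
    · simp [h]
  have h2 : (algebraMap F (EE μ) c • (1 : Matrix (Fin d) (Fin d) (EE μ))).map (fun z => z.im)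
      = 0 := by
    ext i j
    by_cases h : i = j
    · subst h; simp [QuadraticAlgebra.re_one, QuadraticAlgebra.im_one]
    · simp [h]
  unfold rho
  rw [h1, h2, smul_zero, ← fromBlocks_one, fromBlocks_smul, smul_zero]

theorem rho_omega :
    rho μ ((QuadraticAlgebra.omega : EE μ) • (1 : Matrix (Fin d) (Fin d) (EE μ))) = g0 μ d := by
  have h1 : ((QuadraticAlgebra.omega : EE μ) • (1 : Matrix (Fin d) (Fin d) (EE μ))).map
      (fun z => z.re) = 0 := by
    ext i j
    by_cases h : i = j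
    · subst h; simp [QuadraticAlgebra.re_one, QuadraticAlgebra.im_one]
    · simp [h]
  have h2 : ((QuadraticAlgebra.omega : EE μ) • (1 : Matrix (Fin d) (Fin d) (EE μ))).map
      (fun z => z.im) = 1 := by
    ext i j
    by_cases h : i = j
    · subst h; simp [QuadraticAlgebra.re_one, QuadraticAlgebra.im_one]
    · simp [h]
  unfold rho g0
  rw [h1, h2]

theorem jj_rho (Z : Matrix (Fin d) (Fin d) (EE μ)) (v : Fin d ⊕ Fin d → F) :
    jj μ (rho μ Z *ᵥ v) = Z *ᵥ jj μ v := by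
  funext k
  apply QuadraticAlgebra.ext
  · simp only [jj, rho, Matrix.mulVec, dotProduct, Fintype.sum_sum_type, fromBlocks_apply₁₁,
      fromBlocks_apply₁₂, Matrix.map_apply, Matrix.smul_apply, smul_eq_mul, g_re_sum,
      QuadraticAlgebra.re_mul, Finset.sum_add_distrib]
  · simp only [jj, rho, Matrix.mulVec, dotProduct, Fintype.sum_sum_type, fromBlocks_apply₂₁,
      fromBlocks_apply₂₂, Matrix.map_apply, Matrix.smul_apply, smul_eq_mul, g_im_sum,
      QuadraticAlgebra.im_mul, Finset.sum_add_distrib]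
    simp only [zero_mul, Finset.sum_const_zero, add_zero]
    rw [add_comm]

theorem jj_add (v v' : Fin d ⊕ Fin d → F) : jj μ (v + v') = jj μ v + jj μ v' := by
  funext k
  apply QuadraticAlgebra.ext <;> simp [jj]

theorem jj_smul (c : F) (v : Fin d ⊕ Fin d → F) :
    jj μ (c • v) = algebraMap F (EE μ) c • jj μ v := by
  funext k
  apply QuadraticAlgebra.ext <;> simp [jj]

theorem jj_g0 (v : Fin d ⊕ Fin d → F) :
    jj μ (g0 μ d *ᵥ v) = (QuadraticAlgebra.omega : EE μ) • jj μ v := by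
  rw [← rho_omega, jj_rho, Matrix.smul_mulVec, Matrix.one_mulVec]

theorem jj_jjInv (w : Fin d → EE μ) : jj μ (jjInv μ w) = w := by
  funext k
  apply QuadraticAlgebra.ext <;> simp [jj, jjInv]

theorem jjInv_jj (v : Fin d ⊕ Fin d → F) : jjInv μ (jj μ v) = v := by
  funext k
  rcases k with k | k <;> simp [jj, jjInv]

theorem exists_rho_of_commute (Y : Matrix (Fin d ⊕ Fin d) (Fin d ⊕ Fin d) F)
    (h : Y * g0 μ d = g0 μ d * Y) : ∃ Z, Y = rho μ Z := by
  rw [← fromBlocks_toBlocks Y] at h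
  unfold g0 at h
  rw [fromBlocks_multiply, fromBlocks_multiply, fromBlocks_inj] at h
  simp only [Matrix.mul_zero, Matrix.mul_one, Matrix.zero_mul, Matrix.one_mul, zero_add, add_zero,
    Matrix.mul_smul, Matrix.smul_mul] at h
  obtain ⟨h11, -, h21, -⟩ := h
  refine ⟨Matrix.of fun i j => ⟨Y.toBlocks₁₁ i j, Y.toBlocks₂₁ i j⟩, ?_⟩
  conv_lhs => rw [← fromBlocks_toBlocks Y]
  unfold rho
  rw [h11, h21]
  rfl

theorem exists_sym_of_adj (hμ : μ ≠ 0) (Γ : Matrix (Fin d ⊕ Fin d) (Fin d ⊕ Fin d) F) (hΓ : Γᵀ = Γ)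
    (h : Γ * g0 μ d = (g0 μ d)ᵀ * Γ) :
    ∃ G : Matrix (Fin d) (Fin d) (EE μ), Gᵀ = G ∧ Γ = Del μ d * rho μ G := by
  have hΓ' := hΓ
  rw [← fromBlocks_toBlocks Γ] at h hΓ'
  unfold g0 at h
  rw [fromBlocks_transpose, fromBlocks_multiply, fromBlocks_multiply, fromBlocks_inj] at h
  rw [fromBlocks_transpose, fromBlocks_inj] at hΓ'
  simp only [Matrix.mul_zero, Matrix.mul_one, Matrix.zero_mul, Matrix.one_mul, zero_add, add_zero,
    Matrix.mul_smul, Matrix.smul_mul, Matrix.transpose_zero, Matrix.transpose_one,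
    Matrix.transpose_smul] at h
  obtain ⟨h11, h12, -, -⟩ := h
  obtain ⟨s11, s12, -, -⟩ := hΓ'
  refine ⟨Matrix.of fun i j => ⟨Γ.toBlocks₁₁ i j, μ⁻¹ * Γ.toBlocks₁₂ i j⟩, ?_, ?_⟩
  · ext i j
    · have := congrFun (congrFun s11 i) j
      simpa using this
    · have := congrFun (congrFun s12 i) j
      rw [← h11] at this
      simp only [Matrix.transpose_apply, Matrix.of_apply]
      rw [Matrix.transpose_apply] at this
      rw [this]
  · conv_lhs => rw [← fromBlocks_toBlocks Γ]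
    unfold rho Del
    rw [fromBlocks_multiply]
    simp only [Matrix.mul_zero, Matrix.mul_one, Matrix.zero_mul, Matrix.one_mul, zero_add, add_zero,
      Matrix.mul_smul, Matrix.smul_mul]
    have e1 : (Matrix.of fun i j => (⟨Γ.toBlocks₁₁ i j, μ⁻¹ * Γ.toBlocks₁₂ i j⟩ : EE μ)).map
        (fun z => z.re) = Γ.toBlocks₁₁ := rfl
    have e2 : μ • (Matrix.of fun i j => (⟨Γ.toBlocks₁₁ i j, μ⁻¹ * Γ.toBlocks₁₂ i j⟩ : EE μ)).map
        (fun z => z.im) = Γ.toBlocks₁₂ := by
      ext i j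
      simp only [Matrix.smul_apply, Matrix.map_apply, Matrix.of_apply, smul_eq_mul]
      rw [mul_inv_cancel_left₀ hμ]
    rw [e1, e2, ← h11, ← h12, smul_zero, zero_add]

theorem g_re_dot (v w : Fin d ⊕ Fin d → F) : (jj μ v ⬝ᵥ jj μ w).re = v ⬝ᵥ Del μ d *ᵥ w := by
  have e : Del μ d *ᵥ w = Sum.elim (fun k => w (Sum.inl k)) (fun k => μ * w (Sum.inr k)) := by
    funext k
    rcases k with k | k
    · simp [Del, Matrix.mulVec, dotProduct, Fintype.sum_sum_type, Matrix.one_apply]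
    · simp [Del, Matrix.mulVec, dotProduct, Fintype.sum_sum_type, Matrix.one_apply]
  rw [e]
  simp only [dotProduct, g_re_sum, QuadraticAlgebra.re_mul, jj, Fintype.sum_sum_type, Sum.elim_inl,
    Sum.elim_inr, Finset.sum_add_distrib]
  congr 1
  apply Finset.sum_congr rfl
  intro k _
  ring

theorem re_form (G : Matrix (Fin d) (Fin d) (EE μ)) (v v' : Fin d ⊕ Fin d → F) :
    v ⬝ᵥ (Del μ d * rho μ G) *ᵥ v' = (jj μ v ⬝ᵥ G *ᵥ jj μ v').re := by
  rw [← jj_rho, g_re_dot, Matrix.mulVec_mulVec]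

theorem isUnit_of_rho (G : Matrix (Fin d) (Fin d) (EE μ)) (h : IsUnit (rho μ G)) : IsUnit G := by
  obtain ⟨u, hu⟩ := h
  have h1 : rho μ G * (u⁻¹ : (Matrix (Fin d ⊕ Fin d) (Fin d ⊕ Fin d) F)ˣ).1 = 1 := by
    rw [← hu]; exact u.mul_inv
  have h2 : (u⁻¹ : (Matrix (Fin d ⊕ Fin d) (Fin d ⊕ Fin d) F)ˣ).1 * rho μ G = 1 := by
    rw [← hu]; exact u.inv_mul
  have hc : rho μ G * g0 μ d = g0 μ d * rho μ G := by
    rw [← rho_omega, ← rho_mul, ← rho_mul, Matrix.mul_smul, Matrix.smul_mul, Matrix.mul_one,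
      Matrix.one_mul]
  have hc' : (u⁻¹ : (Matrix (Fin d ⊕ Fin d) (Fin d ⊕ Fin d) F)ˣ).1 * g0 μ d
      = g0 μ d * (u⁻¹ : (Matrix (Fin d ⊕ Fin d) (Fin d ⊕ Fin d) F)ˣ).1 := by
    calc (u⁻¹ : (Matrix (Fin d ⊕ Fin d) (Fin d ⊕ Fin d) F)ˣ).1 * g0 μ d
        = (u⁻¹ : (Matrix (Fin d ⊕ Fin d) (Fin d ⊕ Fin d) F)ˣ).1 * g0 μ d *
          (rho μ G * (u⁻¹ : (Matrix (Fin d ⊕ Fin d) (Fin d ⊕ Fin d) F)ˣ).1) := by
          rw [h1, Matrix.mul_one]
      _ = (u⁻¹ : (Matrix (Fin d ⊕ Fin d) (Fin d ⊕ Fin d) F)ˣ).1 * (g0 μ d * rho μ G) *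
          (u⁻¹ : (Matrix (Fin d ⊕ Fin d) (Fin d ⊕ Fin d) F)ˣ).1 := by
          simp only [Matrix.mul_assoc]
      _ = ((u⁻¹ : (Matrix (Fin d ⊕ Fin d) (Fin d ⊕ Fin d) F)ˣ).1 * rho μ G) * g0 μ d *
          (u⁻¹ : (Matrix (Fin d ⊕ Fin d) (Fin d ⊕ Fin d) F)ˣ).1 := by
          rw [← hc]; simp only [Matrix.mul_assoc]
      _ = g0 μ d * (u⁻¹ : (Matrix (Fin d ⊕ Fin d) (Fin d ⊕ Fin d) F)ˣ).1 := by
          rw [h2, Matrix.one_mul]
  obtain ⟨Z, hZ⟩ := exists_rho_of_commute μ _ hc'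
  have h3 : G * Z = 1 := by
    apply rho_injective μ
    rw [rho_mul, ← hZ, h1, rho_one]
  exact ⟨⟨G, Z, h3, mul_eq_one_comm.1 h3⟩, rfl⟩

end ES

end Cfsg.Agent.Lib.Helper1.LBM
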