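import Cfsg.Agent.Lib.Helper80.LBM.Defs

set_option autoImplicit false

/-!
# S2733 farm (helper80), piece [H]: a matrix with `g ^ 2 = μ`, `μ` a non-square
-/

namespace Cfsg.Agent.Lib.Helper1.LBM

open Matrix QuadraticMap Cfsg.Agent.Lib.Helper80.LBM

/-- from a basis `C` with `g C(inl k) = C(inr k)`, `g C(inr k) = μ C(inl k)` to matrices -/
theorem h_of_basis {F : Type*} [Field F] {ι : Type*} [Fintype ι] [DecidableEq ι]
    (g : Matrix ι ι F) (μ : F) {d : ℕ} (C : Module.Basis (Fin d ⊕ Fin d) F (ι → F))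
    (h1 : ∀ k, g *ᵥ C (Sum.inl k) = C (Sum.inr k)) (h2 : ∀ k, g *ᵥ C (Sum.inr k) = μ • C (Sum.inl k)) :
    ∃ (P : Matrix ι (Fin d ⊕ Fin d) F) (P' : Matrix (Fin d ⊕ Fin d) ι F),
      P * P' = 1 ∧ P' * P = 1 ∧ P' * g * P = g0 μ d := by
  refine ⟨(Pi.basisFun F ι).toMatrix C, C.toMatrix (Pi.basisFun F ι),
    Module.Basis.toMatrix_mul_toMatrix_flip _ _, Module.Basis.toMatrix_mul_toMatrix_flip _ _, ?_⟩
  have hP : ∀ i j, (Pi.basisFun F ι).toMatrix C i j = C j i := by
    intro i j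
    simp [Module.Basis.toMatrix_apply]
  have key : g * (Pi.basisFun F ι).toMatrix C = (Pi.basisFun F ι).toMatrix C * g0 μ d := by
    ext i j
    have e1 : (g * (Pi.basisFun F ι).toMatrix C) i j = (g *ᵥ C j) i := by
      simp only [Matrix.mul_apply, Matrix.mulVec, dotProduct, hP]
    rw [e1]
    rcases j with l | l
    · rw [h1]
      simp [Matrix.mul_apply, g0, Fintype.sum_sum_type, hP, Matrix.one_apply]
    · rw [h2]
      simp [Matrix.mul_apply, g0, Fintype.sum_sum_type, hP, Matrix.one_apply, mul_comm]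
  rw [Matrix.mul_assoc, key, ← Matrix.mul_assoc, Module.Basis.toMatrix_mul_toMatrix_flip,
    Matrix.one_mul]

/-- [H] E-STR: a matrix with `g ^ 2 = μ`, `μ` a non-square, is multiplication by `ω` in a suitable
basis. -/
theorem exists_E_basis {F : Type*} [Field F] {ι : Type*} [Fintype ι] [DecidableEq ι]
    (g : Matrix ι ι F) (μ : F) (hμ : ¬ IsSquare μ) (hgg : g * g = μ • (1 : Matrix ι ι F)) :
    ∃ (d : ℕ) (P : Matrix ι (Fin d ⊕ Fin d) F) (P' : Matrix (Fin d ⊕ Fin d) ι F),
      P * P' = 1 ∧ P' * P = 1 ∧ P' * g * P = g0 μ d := by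
  classical
  have hfact : Fact (∀ r : F, r ^ 2 ≠ μ + 0 * r) :=
    ⟨fun r hr => hμ ⟨r, by rw [← pow_two, hr]; ring⟩⟩
  have hT : (Matrix.mulVecLin g : Module.End F (ι → F)) * Matrix.mulVecLin g
      = μ • 1 + (0 : F) • Matrix.mulVecLin g := by
    apply LinearMap.ext
    intro v
    simp only [Module.End.mul_apply, Matrix.mulVecLin_apply, Matrix.mulVec_mulVec, hgg,
      LinearMap.add_apply, LinearMap.smul_apply, Module.End.one_apply, zero_smul, add_zero,
      Matrix.smul_mulVec, Matrix.one_mulVec]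
  let f : EE μ →ₐ[F] Module.End F (ι → F) := QuadraticAlgebra.lift ⟨Matrix.mulVecLin g, hT⟩
  let inst : Module (EE μ) (ι → F) := Module.compHom (ι → F) (f : EE μ →+* Module.End F (ι → F))
  have hsm : ∀ (z : EE μ) (v : ι → F), z • v = z.re • v + z.im • (g *ᵥ v) := by
    intro z v
    show f z v = _
    simp [f, QuadraticAlgebra.lift]
  have htower : IsScalarTower F (EE μ) (ι → F) := ⟨fun c z v => by
    rw [hsm, hsm]
    simp only [QuadraticAlgebra.re_smul, QuadraticAlgebra.im_smul, smul_eq_mul, smul_add, smul_smul]⟩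
  have hfin : Module.Finite (EE μ) (ι → F) := Module.Finite.of_restrictScalars_finite F (EE μ) (ι → F)
  let b : Module.Basis (Fin (Module.finrank (EE μ) (ι → F))) (EE μ) (ι → F) :=
    Module.finBasis (EE μ) (ι → F)
  let e : Fin 2 × Fin (Module.finrank (EE μ) (ι → F)) ≃
      Fin (Module.finrank (EE μ) (ι → F)) ⊕ Fin (Module.finrank (EE μ) (ι → F)) :=
    (Equiv.prodCongr finTwoEquiv (Equiv.refl _)).trans (Equiv.boolProdEquivSum _)
  let C : Module.Basis (Fin (Module.finrank (EE μ) (ι → F)) ⊕ Fin (Module.finrank (EE μ) (ι → F))) F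
      (ι → F) := ((QuadraticAlgebra.basis μ 0).smulTower b).reindex e
  have hC1 : ∀ k, C (Sum.inl k) = b k := by
    intro k
    have : e.symm (Sum.inl k) = (0, k) := rfl
    simp only [C, Module.Basis.reindex_apply, this, Module.Basis.smulTower_apply]
    rw [hsm]
    simp [QuadraticAlgebra.basis]
  have hC2 : ∀ k, C (Sum.inr k) = g *ᵥ b k := by
    intro k
    have : e.symm (Sum.inr k) = (1, k) := rfl
    simp only [C, Module.Basis.reindex_apply, this, Module.Basis.smulTower_apply]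
    rw [hsm]
    simp [QuadraticAlgebra.basis]
  refine ⟨_, h_of_basis g μ C ?_ ?_⟩
  · intro k
    rw [hC1, hC2]
  · intro k
    rw [hC1, hC2, Matrix.mulVec_mulVec, hgg, Matrix.smul_mulVec, Matrix.one_mulVec]

end Cfsg.Agent.Lib.Helper1.LBM
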