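import Cfsg.Agent.Lib.Helper1.LBMG
import Cfsg.Agent.Lib.Helper1.LBMH

set_option autoImplicit false

/-!
# S2733 farm (helper80), piece [J1a]: coordinates for a self-adjoint similarity with `g ^ 2 = μ`
-/

namespace Cfsg.Agent.Lib.Helper1.LBM

open Matrix Cfsg.Agent.Lib.Helper80.LBM

universe u

variable {F : Type u} [Field F] {ι : Type} [Fintype ι] [DecidableEq ι]

/-- [J1a] coordinates (uses wave 1 [G] exists_sym_of_adj, isUnit_of_rho, [H] exists_E_basis). -/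
theorem exists_E_coords (h2 : (2 : F) ≠ 0) (Γ g : Matrix ι ι F) (hΓ : Γᵀ = Γ) (hdet : Γ.det ≠ 0)
    (μ : F) (hμ : ¬ IsSquare μ) (hg : gᵀ * Γ * g = μ • Γ) (hgg : g * g = μ • (1 : Matrix ι ι F)) :
    ∃ (d : ℕ) (P : Matrix ι (Fin d ⊕ Fin d) F) (P' : Matrix (Fin d ⊕ Fin d) ι F)
      (G : Matrix (Fin d) (Fin d) (EE μ)), P * P' = 1 ∧ P' * P = 1 ∧ P' * g * P = g0 μ d ∧
        Gᵀ = G ∧ IsUnit G ∧ Pᵀ * Γ * P = Del μ d * rho μ G := by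
  have hμ0 : μ ≠ 0 := by
    rintro rfl
    exact hμ ⟨0, by simp⟩
  obtain ⟨d, P, P', h1, h2', h3⟩ := exists_E_basis g μ hμ hgg
  have hadj : gᵀ * Γ = Γ * g := by
    have e : gᵀ * Γ * g * g = μ • (Γ * g) := by rw [hg, Matrix.smul_mul]
    rw [Matrix.mul_assoc (gᵀ * Γ), hgg, Matrix.mul_smul, Matrix.mul_one] at e
    exact smul_right_injective _ hμ0 e
  have hsym : (Pᵀ * Γ * P)ᵀ = Pᵀ * Γ * P := by
    rw [Matrix.transpose_mul, Matrix.transpose_mul, Matrix.transpose_transpose, hΓ,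
      Matrix.mul_assoc]
  have hcomm : (Pᵀ * Γ * P) * g0 μ d = (g0 μ d)ᵀ * (Pᵀ * Γ * P) := by
    rw [← h3]
    have e1 : Pᵀ * Γ * P * (P' * g * P) = Pᵀ * Γ * (P * P') * g * P := by
      simp only [Matrix.mul_assoc]
    have e2 : (P' * g * P)ᵀ * (Pᵀ * Γ * P) = Pᵀ * gᵀ * (P * P')ᵀ * Γ * P := by
      simp only [Matrix.transpose_mul, Matrix.mul_assoc]
    rw [e1, e2, h1, Matrix.transpose_one, Matrix.mul_one, Matrix.mul_one, Matrix.mul_assoc Pᵀ gᵀ,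
      hadj, Matrix.mul_assoc Pᵀ Γ g]
  obtain ⟨G, hG, hGe⟩ := exists_sym_of_adj μ hμ0 (Pᵀ * Γ * P) hsym hcomm
  refine ⟨d, P, P', G, h1, h2', h3, hG, ?_, hGe⟩
  apply isUnit_of_rho μ
  have hΓu : IsUnit Γ.det := isUnit_iff_ne_zero.mpr hdet
  have hinv : (P' * Γ⁻¹ * P'ᵀ) * (Pᵀ * Γ * P) = 1 := by
    have e : (P' * Γ⁻¹ * P'ᵀ) * (Pᵀ * Γ * P) = P' * (Γ⁻¹ * ((P * P')ᵀ * Γ)) * P := by
      simp only [Matrix.transpose_mul, Matrix.mul_assoc]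
    rw [e, h1, Matrix.transpose_one, Matrix.one_mul, Matrix.nonsing_inv_mul _ hΓu, Matrix.mul_one,
      h2']
  rw [hGe, ← Matrix.mul_assoc] at hinv
  exact (Matrix.isUnit_iff_isUnit_det _).mpr (Matrix.isUnit_det_of_left_inverse hinv)

end Cfsg.Agent.Lib.Helper1.LBM
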