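import Cfsg.Agent.Lib.Helper80.LBM.Base
import Cfsg.Agent.Lib.Helper8.LBMD
import Cfsg.Agent.Lib.Helper1.LBMJ1a

set_option autoImplicit false

/-!
# S2733 farm (helper80), piece [J1b]: the `E`-structure
-/

namespace Cfsg.Agent.Lib.Helper1.LBM

open Matrix QuadraticMap Module Cfsg.Agent.Lib.Helper80.LBM

universe u

variable {F : Type u} [Field F] {ι : Type} [Fintype ι] [DecidableEq ι]

/-- [J1b] the `E`-structure (uses J1a, wave 1 [D] exists_gram, [G]). -/
theorem exists_EStr (h2 : (2 : F) ≠ 0) (Q : QuadraticForm F (ι → F))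
    (hQ : (polarBilin Q).Nondegenerate) (g : GL ι F) (μ : F) [Fact (∀ r : F, r ^ 2 ≠ μ + 0 * r)]
    (hg : ∀ v, Q ((g : Matrix ι ι F) *ᵥ v) = μ * Q v)
    (hgg : (g : Matrix ι ι F) * (g : Matrix ι ι F) = μ • (1 : Matrix ι ι F)) :
    Nonempty (EStr Q g μ) := by
  classical
  have hμ : ¬ IsSquare μ := by
    rintro ⟨r, hr⟩
    exact (Fact.out : ∀ r : F, r ^ 2 ≠ μ + 0 * r) r (by rw [hr]; ring)
  obtain ⟨Γ, hΓ, hdet, hpol, hiff⟩ := Cfsg.Agent.Lib.Helper8.LBM.exists_gram h2 Q hQ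
  have hgΓ : (g : Matrix ι ι F)ᵀ * Γ * (g : Matrix ι ι F) = μ • Γ := (hiff _ _).mp hg
  obtain ⟨d, P, P', G, h1, h1', h3, hG, hGu, hGe⟩ :=
    exists_E_coords h2 Γ (g : Matrix ι ι F) hΓ hdet μ hμ hgΓ hgg
  -- the constant `1 / 2` of `E`
  set c : EE μ := algebraMap F (EE μ) (2⁻¹ : F) with hc
  have hc2 : c * 2 = 1 := by
    have : (2 : EE μ) = algebraMap F (EE μ) 2 := (map_ofNat (algebraMap F (EE μ)) 2).symm
    rw [hc, this, ← map_mul, inv_mul_cancel₀ h2, map_one]
  let q : QuadraticForm (EE μ) (Fin d → EE μ) := c • G.toQuadraticForm'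
  have hq_apply : ∀ w, q w = c * (w ⬝ᵥ G *ᵥ w) := by
    intro w
    show c • (Matrix.toLinearMap₂' (EE μ) G w w) = _
    rw [Matrix.toLinearMap₂'_apply', smul_eq_mul]
  have hGsymm : ∀ u v : Fin d → EE μ, v ⬝ᵥ G *ᵥ u = u ⬝ᵥ G *ᵥ v := by
    intro u v
    rw [Matrix.dotProduct_mulVec, ← Matrix.mulVec_transpose, hG, dotProduct_comm]
  have hq_polar : ∀ u v, polar q u v = u ⬝ᵥ G *ᵥ v := by
    intro u v
    simp only [polar, hq_apply, Matrix.mulVec_add, dotProduct_add, add_dotProduct]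
    rw [hGsymm u v]
    linear_combination (u ⬝ᵥ G *ᵥ v) * hc2
  have hqnd : (polarBilin q).Nondegenerate := by
    have e : polarBilin q = Matrix.toBilin' G := by
      apply LinearMap.ext
      intro u
      apply LinearMap.ext
      intro v
      rw [polarBilin_apply_apply, hq_polar, Matrix.toBilin'_apply']
    rw [e]
    exact LinearMap.BilinForm.nondegenerate_toBilin'_iff_det_ne_zero.mpr
      ((Matrix.isUnit_iff_isUnit_det _).mp hGu).ne_zero
  have hcard : Fintype.card ι = 2 * d := by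
    have e := (Matrix.toLin'OfInv h1 h1').finrank_eq
    rw [Module.finrank_fintype_fun_eq_card, Module.finrank_fintype_fun_eq_card,
      Fintype.card_sum, Fintype.card_fin] at e
    omega
  let j : (ι → F) ≃+ (Fin d → EE μ) :=
    { toFun := fun v => jj μ (P' *ᵥ v)
      invFun := fun w => P *ᵥ jjInv μ w
      left_inv := fun v => by
        show P *ᵥ jjInv μ (jj μ (P' *ᵥ v)) = v
        rw [jjInv_jj, Matrix.mulVec_mulVec, h1, Matrix.one_mulVec]
      right_inv := fun w => by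
        show jj μ (P' *ᵥ (P *ᵥ jjInv μ w)) = w
        rw [Matrix.mulVec_mulVec, h1', Matrix.one_mulVec, jj_jjInv]
      map_add' := fun v v' => by
        show jj μ (P' *ᵥ (v + v')) = jj μ (P' *ᵥ v) + jj μ (P' *ᵥ v')
        rw [Matrix.mulVec_add, jj_add] }
  have hj : ∀ v, j v = jj μ (P' *ᵥ v) := fun _ => rfl
  have hj_smul : ∀ (a : F) (v : ι → F), j (a • v) = algebraMap F (EE μ) a • j v := by
    intro a v
    rw [hj, hj, Matrix.mulVec_smul, jj_smul]
  have hP'g : P' * (g : Matrix ι ι F) = g0 μ d * P' := by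
    rw [← h3, Matrix.mul_assoc, h1, Matrix.mul_one]
  have hj_g : ∀ v : ι → F, j ((g : Matrix ι ι F) *ᵥ v) = (QuadraticAlgebra.omega : EE μ) • j v := by
    intro v
    rw [hj, hj, Matrix.mulVec_mulVec, hP'g, ← Matrix.mulVec_mulVec, jj_g0]
  have hQ_eq : ∀ v : ι → F, Q v = (q (j v)).re := by
    intro v
    have e1 : polar Q v v = 2 * Q v := by
      rw [polar_self]; simp
    have e2 : v ⬝ᵥ Γ *ᵥ v = (P' *ᵥ v) ⬝ᵥ (Pᵀ * Γ * P) *ᵥ (P' *ᵥ v) := by
      rw [← Matrix.mulVec_mulVec, ← Matrix.mulVec_mulVec, Matrix.mulVec_mulVec v P P', h1,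
        Matrix.one_mulVec, Matrix.dotProduct_mulVec (P' *ᵥ v), Matrix.vecMul_transpose,
        Matrix.mulVec_mulVec, h1, Matrix.one_mulVec]
    have e3 : (q (j v)).re = 2⁻¹ * (j v ⬝ᵥ G *ᵥ j v).re := by
      rw [hq_apply, hc, ← Algebra.smul_def, QuadraticAlgebra.re_smul, smul_eq_mul]
    rw [e3, hj, ← re_form, ← hGe, ← e2, ← hpol, e1, ← mul_assoc, inv_mul_cancel₀ h2, one_mul]
  let φ : Matrix (Fin d) (Fin d) (EE μ) →* Matrix ι ι F :=
    { toFun := fun Z => P * rho μ Z * P'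
      map_one' := by
        show P * rho μ 1 * P' = 1
        rw [rho_one, Matrix.mul_one, h1]
      map_mul' := fun Z Z' => by
        show P * rho μ (Z * Z') * P' = (P * rho μ Z * P') * (P * rho μ Z' * P')
        have e : (P * rho μ Z * P') * (P * rho μ Z' * P') = P * rho μ Z * (P' * P) * rho μ Z' * P' := by
          simp only [Matrix.mul_assoc]
        rw [e, h1', Matrix.mul_one, rho_mul, Matrix.mul_assoc P (rho μ Z)] }
  have hφ : ∀ (Z : Matrix (Fin d) (Fin d) (EE μ)) (v : ι → F), j (φ Z *ᵥ v) = Z *ᵥ j v := by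
    intro Z v
    show jj μ (P' *ᵥ ((P * rho μ Z * P') *ᵥ v)) = Z *ᵥ jj μ (P' *ᵥ v)
    have e : P' * (P * rho μ Z * P') = rho μ Z * P' := by
      rw [Matrix.mul_assoc P, ← Matrix.mul_assoc P', h1', Matrix.one_mul]
    rw [Matrix.mulVec_mulVec, e, ← Matrix.mulVec_mulVec, jj_rho]
  have hmem : ∀ s : ↥(Cfsg.isometryGroup (EE μ) ⇑q),
      ((Units.map φ).comp (Cfsg.isometryGroup (EE μ) ⇑q).subtype) s ∈ Cfsg.isometryGroup F ⇑Q := by
    intro s u _
    show Q (φ ((s : GL (Fin d) (EE μ)) : Matrix _ _ (EE μ)) *ᵥ u) = Q u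
    rw [hQ_eq, hQ_eq, hφ]
    exact congrArg _ (s.2 (j u) (j u))
  exact ⟨{ d := d
           card_eq := hcard
           q := q
           hq := hqnd
           j := j
           j_smul := hj_smul
           j_g := hj_g
           Q_eq := hQ_eq
           R := ((Units.map φ).comp (Cfsg.isometryGroup (EE μ) ⇑q).subtype).codRestrict _ hmem
           j_R := fun s v => hφ _ v }⟩

end Cfsg.Agent.Lib.Helper1.LBM
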